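import Cfsg.Agent.Lib.AltModule.P5.M1.Def
import Cfsg.Agent.Lib.AltModule.P5.M6.Def

/-!
Checks for piece 2 of the certificate.
-/

namespace Cfsg.Agent.AltMod.P5.M1

def c2_0 : List (ℕ) := [0,
  0,
  0,
  0,
  0,
  0,
  0,
  0]

def c2_1 : List (ℕ) := [0,
  0,
  0,
  0,
  0,
  0,
  0,
  0]

def c2_2 : List (ℕ) := [0,
  0,
  0,
  0,
  0,
  0,
  0,
  0]

def c2_3 : List (ℕ) := [0,
  0,
  0,
  0,
  0,
  0,
  0,
  0]

def c2_4 : List (ℕ) := [0x200030004000400000004000300020000000000020002000100040004000100040003000200040001000300000003000400040003000200040004000100010003000200040000000100010004000100030000000000020004000200000003,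
  0x40001000000040001000100010003000400020001000100000000000300010002000200040000000400000004000400040002000200020003000300000004000400000002000200020000000100000001000200010002000400030000,
  0x30004000300030004000300040002000300030001000100040001000300000004000400000002000000020000000400010002000300020001000200030004000000000000000100010001000400000003000100040002000200040000,
  0x20004000100020004000000030004000200010001000100000003000000010001000000010002000200000000000400020004000000020001000000020002000000000001000100000000000300010004000100030003000000010001,
  0x20000000300040002000200030000000400030000000100030001000000000002000300020000000100000003000200010001000300040004000400030004000200040002000200020000000100030004000000040000000000040004,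
  0x200030001000300040000000000000000000100000001000200020004000100000000000200010002000300020000000200020001000000020004000000030000000300000001000100010000000200010003000000030000000000030003,
  0x30000000200010003000300020000000300020001000400000003000100040002000100030002000400020002000200000001000300010001000400040002000200000001000100000002000300020003000200030003000000020002,
  0x300020004000200010000000000000000000200000002000100040001000400000000000000020001000000010000000100010004000000000004000300020002000300040003000300000001000300040001000400030003000000040004]

def c2 : List (List ℕ) := [c2_0, c2_1, c2_2, c2_3, c2_4]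

theorem fac2_0 : mdl.factorOk 5 M6.mdl pc2 k2 0 c2_0 = true := by
  decide +kernel

theorem fac2_1 : mdl.factorOk 5 M6.mdl pc2 k2 1 c2_1 = true := by
  decide +kernel

theorem fac2_2 : mdl.factorOk 5 M6.mdl pc2 k2 2 c2_2 = true := by
  decide +kernel

theorem fac2_3 : mdl.factorOk 5 M6.mdl pc2 k2 3 c2_3 = true := by
  decide +kernel

theorem fac2_4 : mdl.factorOk 5 M6.mdl pc2 k2 4 c2_4 = true := by
  decide +kernel

end Cfsg.Agent.AltMod.P5.M1
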